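import Cfsg.Agent.H631.VZ.TorC
import Cfsg.Agent.H769.OZ.BalSL

/-!
# S4842: the rank one groups of the Chevalley groups (helper364)

`hp : IsType D l M` one of the seven tabulated data, `K` a field, `i` a node.

* `ff hp K i : SL(2, K) →* D.group K`, `ff_up`, `ff_lo`, `ff_dg` (the coroot elements), `ff_wm` (the element `n i`);
* `mem_X_iff`, `ff_inj`, `bal` (`Bal X T n i`), `qq_eq` (`q_i = |K|`), `ni_mem`;
* `exists_hh` : `T ∩ ⟨X_i, X_-i⟩` consists of coroot elements; `triv_iff` : `Triv X f i ↔ bl hp f i = 1`.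
-/

set_option autoImplicit false
set_option linter.unusedSectionVars false

open Cfsg

namespace Cfsg.Agent.H364.OZ.ChevSL

open CoxeterSystem Cfsg.Agent.ChevalleyStructure.CoxeterGeom Cfsg.Agent.Tits.Roots Cfsg.Agent.Tits.Core
  Cfsg.Agent.Tits.Exchange Cfsg.Agent.Nodes.Reps Cfsg.Agent.Nodes.BNOf Cfsg.Agent.Nodes.StabComb
  Cfsg.Agent.Nodes.Bruhat Cfsg.Agent.Nodes.OppDec Cfsg.Agent.Nodes.LeviDec Module Cfsg.Agent.H985.VZ
open Cfsg.Lie Cfsg.Lie.ChevalleyDatum
open Cfsg.Agent.ChevalleyStructure Cfsg.Agent.ChevalleyStructure.Elts Cfsg.Agent.ChevalleyStructure.SL2Hom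
  Cfsg.Agent.ChevalleyStructure.CoxeterGeomTypes Cfsg.Agent.ChevalleyStructure.NPerm
open Cfsg.Agent.Nodes Cfsg.Agent.Nodes.RGDChev
open Cfsg.Agent.KFacts.RgdField Cfsg.Agent.KFacts.RgdChevCoord
open Cfsg.Agent.H769.OZ Cfsg.Agent.H631.VZ
open Matrix

universe u

section abs

variable {I W Y : Type*} [Fintype I] [DecidableEq I] [Group W] [Group Y] {M : CoxeterMatrix I}
  {cs : CoxeterSystem M W} {A : I → I → ℤ} {h : IsCartan M A} {p : ℕ} {T : Subgroup Y} {n : I → Y}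
  {X : (I → ℤ) → Subgroup Y} (R : RGD cs h p T n X) {i : I} {K : Type*} [Field K]
  (f : SpecialLinearGroup (Fin 2) K →* Y)

include R

/-- the elements of `T ∩ ⟨X_i, X_-i⟩` are images of diagonal matrices -/
theorem exists_dg [Finite W] (hU : ∀ y, y ∈ X (sr i) ↔ ∃ c, y = f (up c))
    (hT : ∀ a : Kˣ, f (dg a) ∈ T) (hn : ∃ a : Kˣ, n i = f (dg a * wm)) {t : Y} (ht : t ∈ T) (htL : t ∈ Li X i) :
    ∃ a : Kˣ, t = f (dg a) := by
  obtain ⟨a0, hn⟩ := hn
  have hrange : Li X i ≤ f.range := by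
    have h1 : X (sr i) ≤ f.range := by
      intro y hy
      obtain ⟨c, rfl⟩ := (hU y).1 hy
      exact ⟨_, rfl⟩
    refine sup_le h1 ?_
    intro y hy
    have h2 : (n i)⁻¹ * y * n i ∈ X (sr i) := by
      have h5 := R.conj_mem' (rp_simple cs R.nsys i) (isRoot_sr cs h i).neg hy
      rwa [inv_simple, map_neg, rep_simple_sr, neg_neg] at h5
    have h3 : n i ∈ f.range := ⟨_, hn.symm⟩
    have h4 : y = n i * ((n i)⁻¹ * y * n i) * (n i)⁻¹ := by group
    rw [h4]
    exact mul_mem (mul_mem h3 (h1 h2)) (inv_mem h3)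
  have hXT : ∀ y, y ∈ X (sr i) → y ∈ T → y = 1 := by
    intro y hy hyT
    have h1 := X_inf_T R (isRoot_sr cs h i)
    rw [eq_bot_iff] at h1
    exact h1 ⟨hy, hyT⟩
  obtain ⟨g, hg⟩ := hrange htL
  rcases exists_bruhat g with ⟨a, c, e⟩ | ⟨c, d, a, e⟩
  · refine ⟨a, ?_⟩
    rw [e, map_mul] at hg
    have h1 : f (up c) = 1 := by
      refine hXT _ ((hU _).2 ⟨c, rfl⟩) ?_
      have : f (up c) = (f (dg a))⁻¹ * t := by rw [← hg]; group
      rw [this]
      exact mul_mem (inv_mem (hT a)) ht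
    rw [← hg, h1, mul_one]
  · exfalso
    have h1 : t = f (up c) * (f (dg (a * a0⁻¹)) * n i) * f (up d) := by
      rw [← hg, e, hn, ← map_mul, ← map_mul, ← map_mul, ← mul_assoc (dg (a * a0⁻¹)), dg_mul, inv_mul_cancel_right]
    refine not_rel_one (n := n) (i := i) R (t := t⁻¹ * f (dg (a * a0⁻¹))) (mul_mem (inv_mem ht) (hT _))
      ⟨t⁻¹ * f (up c) * t, ?_, f (up d), (hU _).2 ⟨_, rfl⟩, ?_⟩
    · have h3 := R.conj_mem (rp_of_mem (cs := cs) (hN := R.nsys) (inv_mem ht)) (isRoot_sr cs h i)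
        ((hU (f (up c))).2 ⟨_, rfl⟩)
      rwa [inv_inv, map_one] at h3
    · calc n i * 1 * (n i)⁻¹ = t⁻¹ * t := by group
        _ = t⁻¹ * (f (up c) * (f (dg (a * a0⁻¹)) * n i) * f (up d)) := by rw [← h1]
        _ = _ := by group

end abs

variable {D : ChevalleyDatum} {l : ℕ} {M : CoxeterMatrix (Fin l)} (hp : IsType D l M) (K : Type u) [Field K]

theorem exists_ff (i : Fin l) : ∃ f : SpecialLinearGroup (Fin 2) K →* ↥(D.group K),
    (∀ c, f (up c) = xc hp (sr i) c) ∧ ∀ c, f (lo c) = xc hp (-sr i) c := by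
  have hi := simple_lt hp.inList (lt_rank hp i)
  obtain ⟨φ, hφ, hφ'⟩ := Cfsg.Agent.S1030.result (F := K) D hp.inList (D.simple i) hi
  have hu : ∀ c, φ (up c) = xG hp.inList (D.simple i) c := fun c => Units.ext ((hφ' (up c) c).1 rfl)
  have hv : ∀ c, φ (lo c) = xG hp.inList (D.neg (D.simple i)) c := fun c => Units.ext ((hφ' (lo c) c).2 rfl)
  have hmem : ∀ g, φ g ∈ D.group K := by
    intro g
    have h1 : Subgroup.closure (Set.range (up (F := K)) ∪ Set.range (lo (F := K))) ≤ (D.group K).comap φ := by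
      rw [Subgroup.closure_le]
      rintro _ (⟨c, rfl⟩ | ⟨c, rfl⟩)
      · rw [SetLike.mem_coe, Subgroup.mem_comap, hu]
        exact xG_mem_group hp.inList _ _
      · rw [SetLike.mem_coe, Subgroup.mem_comap, hv]
        exact xG_mem_group hp.inList _ _
    exact h1 (mem_closure_SL2 g)
  refine ⟨φ.codRestrict _ hmem, fun c => Subtype.ext ?_, fun c => Subtype.ext ?_⟩
  · rw [← vec_simple hp i, coe_xc hp hi]
    exact hu c
  · rw [← vec_simple hp i, ← vec_neg hp hi, coe_xc hp (neg_lt hp.inList hi)]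
    exact hv c

/-- the homomorphism of `SL₂` of a node -/
noncomputable def ff (i : Fin l) : SpecialLinearGroup (Fin 2) K →* ↥(D.group K) := (exists_ff hp K i).choose

theorem ff_up (i : Fin l) (c : K) : ff hp K i (up c) = xc hp (sr i) c := (exists_ff hp K i).choose_spec.1 c

theorem ff_lo (i : Fin l) (c : K) : ff hp K i (lo c) = xc hp (-sr i) c := (exists_ff hp K i).choose_spec.2 c

/-- the product of root elements `n(t)` -/
theorem up_lo_up (t : Kˣ) : up (t : K) * (lo (-(t : K)⁻¹) * up (t : K)) = dg t * wm := by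
  apply mt_inj
  have ht : (t : K) ≠ 0 := t.ne_zero
  have e : mt (lo (-(t : K)⁻¹)) = !![1, 0; -(t : K)⁻¹, 1] := rfl
  rw [mt_mul, mt_mul, mt_mul, coe_up, coe_dg, coe_wm, e, Matrix.mul_fin_two, Matrix.mul_fin_two, Matrix.mul_fin_two]
  congr 1
  funext i
  fin_cases i <;> (funext j; fin_cases j <;> simp [ht])

theorem ff_n (i : Fin l) (t : Kˣ) : ((ff hp K i (dg t * wm) : ↥(D.group K)) : GL D.Idx K) =
    nG hp.inList (D.simple i) (t : K) := by
  have hi := simple_lt hp.inList (lt_rank hp i)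
  have h1 : ((xc hp (sr i) (t : K) : ↥(D.group K)) : GL D.Idx K) = xG hp.inList (D.simple i) (t : K) := by
    rw [← vec_simple hp i, coe_xc hp hi]
  have h2 : ((xc hp (-sr i) (-(t : K)⁻¹) : ↥(D.group K)) : GL D.Idx K) =
      xG hp.inList (D.neg (D.simple i)) (-(t : K)⁻¹) := by
    rw [← vec_simple hp i, ← vec_neg hp hi, coe_xc hp (neg_lt hp.inList hi)]
  rw [← up_lo_up, map_mul, map_mul, ff_up, ff_lo, Subgroup.coe_mul, Subgroup.coe_mul, h1, h2, nG_def]

theorem ff_wm (i : Fin l) : nc hp K i = ff hp K i (dg 1 * wm) := by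
  apply Subtype.ext
  rw [ff_n, Units.val_one]
  rfl

theorem ff_dg (i : Fin l) (t : Kˣ) : ff hp K i (dg t) = hc hp i (t : K) := by
  apply Subtype.ext
  have h1 : dg t = (dg t * wm) * (dg (-1) * wm) := by
    apply mt_inj
    simp only [mt_mul, coe_dg, coe_wm, Matrix.mul_fin_two, Units.val_neg, Units.val_one]
    congr 1
    funext i
    fin_cases i <;> (funext j; fin_cases j <;> simp)
  rw [h1, map_mul, Subgroup.coe_mul, ff_n, ff_n, Units.val_neg, Units.val_one, ← hG_def]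
  rfl

theorem ff_dg' (i : Fin l) (t : Kˣ) : ff hp K i (dg t) = ((hh hp i t : TT D K) : ↥(D.group K)) := ff_dg hp K i t

theorem ff_inj (i : Fin l) (c : K) (h : ff hp K i (up c) = 1) : c = 0 := by
  have hi := simple_lt hp.inList (lt_rank hp i)
  have h1 : ff hp K i (up c) = ff hp K i (up 0) := by rw [h, up_zero, map_one]
  rw [ff_up, ff_up, ← vec_simple hp i] at h1
  exact xc_inj hp hi h1

theorem mem_X_iff (i : Fin l) (y : ↥(D.group K)) : y ∈ XX D l K (sr i) ↔ ∃ c, y = ff hp K i (up c) := by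
  have hi := simple_lt hp.inList (lt_rank hp i)
  constructor
  · intro hy
    rw [Subgroup.mem_subgroupOf, XV_sr hp] at hy
    obtain ⟨c, hc⟩ := (mem_rootSubgroup_iff hp.inList _ _).1 hy
    refine ⟨c, Subtype.ext ?_⟩
    rw [ff_up, ← vec_simple hp i, coe_xc hp hi]
    exact hc
  · rintro ⟨c, rfl⟩
    rw [Subgroup.mem_subgroupOf, XV_sr hp, ff_up, ← vec_simple hp i, coe_xc hp hi]
    exact xG_mem_rootSubgroup hp.inList _ _

theorem ff_T (i : Fin l) (a : Kˣ) : ff hp K i (dg a) ∈ TT D K := by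
  rw [ff_dg]
  exact hc_mem hp i a.ne_zero

variable {W : Type*} [Group W] (cs : CoxeterSystem M W)

include hp in
theorem qq_eq (i : Fin l) : qq (XX D l K) i = Nat.card K :=
  qq_SL (ff hp K i) (mem_X_iff hp K i) (ff_inj hp K i)

include cs in
theorem bal [Finite K] (p : ℕ) [Fact p.Prime] [CharP K p] (i : Fin l) : Bal (XX D l K) (TT D K) (nc hp K) i := by
  have : Finite W := finite_W hp cs
  exact bal_SL (rgd (K := K) hp cs p) (ff hp K i) (mem_X_iff hp K i) (ff_inj hp K i) (ff_T hp K i) ⟨1, ff_wm hp K i⟩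

/-- `n i` lies in the rank one group -/
theorem ni_mem (i : Fin l) : nc hp K i ∈ Li (XX D l K) i := by
  have hi := simple_lt hp.inList (lt_rank hp i)
  have h1 : ∀ c, xc hp (sr i) c ∈ Li (XX D l K) i := fun c =>
    le_sup_left (a := XX D l K (sr i)) ((mem_X_iff hp K i _).2 ⟨c, (ff_up hp K i c).symm⟩)
  have h2 : ∀ c, xc hp (-sr i) c ∈ Li (XX D l K) i := fun c => by
    refine le_sup_right (a := XX D l K (sr i)) (b := XX D l K (-sr i)) ?_
    rw [Subgroup.mem_subgroupOf, XV_neg_sr hp, ← vec_simple hp i, ← vec_neg hp hi, coe_xc hp (neg_lt hp.inList hi)]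
    exact xG_mem_rootSubgroup hp.inList _ _
  rw [ff_wm, ← up_lo_up, map_mul, map_mul, ff_up, ff_lo]
  exact mul_mem (h1 _) (mul_mem (h2 _) (h1 _))

include cs in
/-- **`T ∩ ⟨X_i, X_-i⟩` consists of the coroot elements** -/
theorem exists_hh [Finite K] (p : ℕ) [Fact p.Prime] [CharP K p] (i : Fin l) {t : TT D K}
    (ht : (t : ↥(D.group K)) ∈ Li (XX D l K) i) : ∃ a : Kˣ, t = hh hp i a := by
  have : Finite W := finite_W hp cs
  obtain ⟨a, e⟩ := exists_dg (rgd (K := K) hp cs p) (ff hp K i) (mem_X_iff hp K i) (ff_T hp K i) ⟨1, ff_wm hp K i⟩ t.2 ht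
  exact ⟨a, Subtype.ext (e.trans (ff_dg' hp K i a))⟩

include cs in
theorem mem_range_hh [Finite K] (p : ℕ) [Fact p.Prime] [CharP K p] (i : Fin l) (t : TT D K)
    (ht : (t : ↥(D.group K)) ∈ Li (XX D l K) i) : t ∈ (hh hp i : Kˣ →* TT D K).range := by
  obtain ⟨a, rfl⟩ := exists_hh hp K cs p i ht
  exact ⟨a, rfl⟩

include cs in
theorem triv_of_bl [Finite K] (p : ℕ) [Fact p.Prime] [CharP K p] (i : Fin l) {f : TT D K →* ℂˣ}
    (hf : bl hp f i = 1) : Triv (XX D l K) f i := by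
  intro t ht
  obtain ⟨a, rfl⟩ := exists_hh hp K cs p i ht
  exact DFunLike.congr_fun hf a

end Cfsg.Agent.H364.OZ.ChevSL
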