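import Mathlib.Algebra.BigOperators.Intervals
import Mathlib.Algebra.Field.ZMod
import Mathlib.Data.Complex.Basic
import Mathlib.Tactic

/-!
# S4842: `G₂(q)`, the arithmetic of the degrees (helper364)

* `lin` : `χ(1) (1 + y) (1 + z) (1 + y z + (y z)²) = (1 + q)² (1 + q² + q⁴)`, `y, z ∈ {q, 1/q}` :
  `χ(1) = 1`, `q⁶` or `q (1 + q² + q⁴) / 3`.
* `quad` : `χ(1) (1 + y) (1 + z) = (1 + q)² (1 + q² + q⁴)` : `1 + q² + q⁴` divides `χ(1)`.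
* `dvd_of_six`, `dvd_of_three` : a prime `r` with `orderOf (p : ZMod r) = 6 a` or `3 a` divides `1 + q² + q⁴`.
* `lin_dvd`, `quad_dvd` : `χ(1) ∈ {1, q⁶}` or `r ∣ χ(1)`.
-/

set_option autoImplicit false

namespace Cfsg.Agent.H364.OZ.G2End

open Finset

/-- the linear case -/
theorem lin {q N : ℕ} (hq : 2 ≤ q) {y z : ℂ} (hy : y = q ∨ y = (q : ℂ)⁻¹) (hz : z = q ∨ z = (q : ℂ)⁻¹)
    (h : (N : ℂ) * ((1 + y) * (1 + z) * ∑ i ∈ range 3, (y * z) ^ i) =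
      (1 + q : ℂ) * (1 + q) * ∑ i ∈ range 3, ((q : ℂ) * q) ^ i) :
    N = 1 ∨ N = q ^ 6 ∨ 3 * N = q * (q ^ 4 + q ^ 2 + 1) := by
  have hq0 : (q : ℂ) ≠ 0 := Nat.cast_ne_zero.2 (by omega)
  have h1 : (1 + q : ℂ) ≠ 0 := by
    have : ((1 + q : ℕ) : ℂ) ≠ 0 := Nat.cast_ne_zero.2 (by omega)
    push_cast at this
    exact this
  have hS : (1 + (q : ℂ) * q + ((q : ℂ) * q) ^ 2) ≠ 0 := by
    have : ((1 + q * q + (q * q) ^ 2 : ℕ) : ℂ) ≠ 0 := Nat.cast_ne_zero.2 (by positivity)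
    push_cast at this
    exact this
  have e3 : ∀ x : ℂ, ∑ i ∈ range 3, x ^ i = 1 + x + x ^ 2 := fun x => by
    rw [sum_range_succ, sum_range_succ, sum_range_one, pow_zero, pow_one]
  rw [e3, e3] at h
  have hmix : ∀ y z : ℂ, y = q → z = (q : ℂ)⁻¹ →
      (N : ℂ) * ((1 + y) * (1 + z) * (1 + y * z + (y * z) ^ 2)) =
      (1 + q : ℂ) * (1 + q) * (1 + (q : ℂ) * q + ((q : ℂ) * q) ^ 2) → 3 * N = q * (q ^ 4 + q ^ 2 + 1) := by
    rintro _ _ rfl rfl h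
    rw [mul_inv_cancel₀ hq0] at h
    have h2 : (3 * N : ℂ) = q * (q ^ 4 + q ^ 2 + 1) := by
      refine mul_left_cancel₀ (mul_ne_zero h1 h1) ?_
      have h3 : (1 + q : ℂ) * (1 + q) * (3 * N) = q * ((N : ℂ) * ((1 + q) * (1 + (q : ℂ)⁻¹) * (1 + 1 + 1 ^ 2))) := by
        field_simp
        ring
      rw [h3, h]
      ring
    exact_mod_cast h2
  rcases hy with rfl | rfl <;> rcases hz with rfl | rfl
  · left
    have h2 : (N : ℂ) = 1 := by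
      refine mul_right_cancel₀ (mul_ne_zero (mul_ne_zero h1 h1) hS) ?_
      rw [h, one_mul]
    exact_mod_cast h2
  · exact Or.inr (Or.inr (hmix _ _ rfl rfl h))
  · refine Or.inr (Or.inr (hmix _ _ rfl rfl ?_))
    rw [← h]
    ring
  · right; left
    have h2 : (N : ℂ) = q ^ 6 := by
      refine mul_right_cancel₀ (mul_ne_zero (mul_ne_zero h1 h1) hS) ?_
      rw [show (q : ℂ) ^ 6 * ((1 + q : ℂ) * (1 + q) * (1 + (q : ℂ) * q + ((q : ℂ) * q) ^ 2)) =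
        q ^ 6 * ((N : ℂ) * ((1 + (q : ℂ)⁻¹) * (1 + (q : ℂ)⁻¹) * (1 + (q : ℂ)⁻¹ * (q : ℂ)⁻¹ + ((q : ℂ)⁻¹ * (q : ℂ)⁻¹) ^ 2))) by
          rw [h]]
      field_simp
      ring
    exact_mod_cast h2

/-- the quadratic case -/
theorem quad {q N : ℕ} (hq : 2 ≤ q) {y z : ℂ} (hy : y = q ∨ y = (q : ℂ)⁻¹) (hz : z = q ∨ z = (q : ℂ)⁻¹)
    (h : (N : ℂ) * ((1 + y) * (1 + z)) = (1 + q : ℂ) ^ 2 * (1 + q ^ 2 + q ^ 4)) : q ^ 4 + q ^ 2 + 1 ∣ N := by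
  have hq0 : (q : ℂ) ≠ 0 := Nat.cast_ne_zero.2 (by omega)
  have h1 : (1 + q : ℂ) ≠ 0 := by
    have : ((1 + q : ℕ) : ℂ) ≠ 0 := Nat.cast_ne_zero.2 (by omega)
    push_cast at this
    exact this
  have hmix : ∀ y z : ℂ, y = q → z = (q : ℂ)⁻¹ → (N : ℂ) * ((1 + y) * (1 + z)) = (1 + q : ℂ) ^ 2 * (1 + q ^ 2 + q ^ 4) →
      N = q * (q ^ 4 + q ^ 2 + 1) := by
    rintro _ _ rfl rfl h
    have h2 : (N : ℂ) = q * (q ^ 4 + q ^ 2 + 1) := by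
      refine mul_left_cancel₀ (mul_ne_zero h1 h1) ?_
      have h3 : (1 + q : ℂ) * (1 + q) * N = q * ((N : ℂ) * ((1 + q) * (1 + (q : ℂ)⁻¹))) := by
        field_simp
        ring
      rw [h3, h]
      ring
    exact_mod_cast h2
  rcases hy with rfl | rfl <;> rcases hz with rfl | rfl
  · have h2 : (N : ℂ) = q ^ 4 + q ^ 2 + 1 := by
      refine mul_right_cancel₀ (mul_ne_zero h1 h1) ?_
      rw [h]
      ring
    have h3 : N = q ^ 4 + q ^ 2 + 1 := by exact_mod_cast h2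
    exact ⟨1, by rw [h3, mul_one]⟩
  · exact ⟨q, by rw [hmix _ _ rfl rfl h, mul_comm]⟩
  · exact ⟨q, by rw [hmix _ _ rfl rfl (by rw [← h]; ring), mul_comm]⟩
  · have h2 : (N : ℂ) = q ^ 2 * (q ^ 4 + q ^ 2 + 1) := by
      refine mul_right_cancel₀ (mul_ne_zero h1 h1) ?_
      have h3 : (N : ℂ) * ((1 + q : ℂ) * (1 + q)) = q ^ 2 * ((N : ℂ) * ((1 + (q : ℂ)⁻¹) * (1 + (q : ℂ)⁻¹))) := by
        field_simp
        ring
      rw [h3, h]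
      ring
    have h3 : N = q ^ 2 * (q ^ 4 + q ^ 2 + 1) := by exact_mod_cast h2
    exact ⟨q ^ 2, by rw [h3, mul_comm]⟩

theorem key_three : ∀ x : ZMod 3, x ^ 6 = 1 → x ^ 2 = 1 := by decide

section primes

variable {p a r : ℕ}

/-- `r ≠ 3` and `r ∣ q⁴ + q² + 1` if the order of `q = p ^ a` modulo `r` is `3` or `6` -/
theorem dvd_aux [Fact r.Prime] {q : ℕ} (h1 : (q : ZMod r) ^ 6 = 1) (h2 : (q : ZMod r) ^ 2 ≠ 1) :
    r ∣ q ^ 4 + q ^ 2 + 1 ∧ r ≠ 3 := by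
  have h3 : ((q : ZMod r) ^ 2 - 1) * ((q : ZMod r) ^ 4 + (q : ZMod r) ^ 2 + 1) = 0 := by
    linear_combination h1
  refine ⟨?_, ?_⟩
  · rcases mul_eq_zero.1 h3 with h4 | h4
    · exact absurd (sub_eq_zero.1 h4) h2
    · rw [← ZMod.natCast_eq_zero_iff]
      push_cast
      exact h4
  · rintro rfl
    exact h2 (key_three _ h1)

theorem dvd_of_six (hr : r.Prime) (ha : 0 < a) (ho : orderOf (p : ZMod r) = a * 6) :
    r ∣ (p ^ a) ^ 4 + (p ^ a) ^ 2 + 1 ∧ r ≠ 3 := by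
  have : Fact r.Prime := ⟨hr⟩
  apply dvd_aux
  · push_cast
    rw [← pow_mul, ← ho, pow_orderOf_eq_one]
  · intro h
    push_cast at h
    rw [← pow_mul] at h
    have h1 := orderOf_dvd_of_pow_eq_one h
    rw [ho] at h1
    have := Nat.le_of_dvd (by positivity) h1
    omega

theorem dvd_of_three (hr : r.Prime) (ha : 0 < a) (ho : orderOf (p : ZMod r) = a * 3) :
    r ∣ (p ^ a) ^ 4 + (p ^ a) ^ 2 + 1 ∧ r ≠ 3 := by
  have : Fact r.Prime := ⟨hr⟩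
  apply dvd_aux
  · push_cast
    rw [← pow_mul, show a * 6 = a * 3 * 2 by ring, pow_mul, ← ho, pow_orderOf_eq_one, one_pow]
  · intro h
    push_cast at h
    rw [← pow_mul] at h
    have h1 := orderOf_dvd_of_pow_eq_one h
    rw [ho] at h1
    have := Nat.le_of_dvd (by positivity) h1
    omega

/-- the linear case with the primes -/
theorem lin_dvd (hr : r.Prime) (ha : 0 < a) (hp : 2 ≤ p) (ho : orderOf (p : ZMod r) = a * 6 ∨ orderOf (p : ZMod r) = a * 3)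
    {N : ℕ} {y z : ℂ} (hy : y = (p ^ a : ℕ) ∨ y = ((p ^ a : ℕ) : ℂ)⁻¹) (hz : z = (p ^ a : ℕ) ∨ z = ((p ^ a : ℕ) : ℂ)⁻¹)
    (h : (N : ℂ) * ((1 + y) * (1 + z) * ∑ i ∈ range 3, (y * z) ^ i) =
      (1 + (p ^ a : ℕ) : ℂ) * (1 + (p ^ a : ℕ)) * ∑ i ∈ range 3, (((p ^ a : ℕ) : ℂ) * (p ^ a : ℕ)) ^ i) :
    N = 1 ∨ N = (p ^ a) ^ 6 ∨ r ∣ N := by
  have hq : 2 ≤ p ^ a := le_trans hp (Nat.le_self_pow ha.ne' p)
  rcases lin hq hy hz h with h1 | h1 | h1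
  · exact Or.inl h1
  · exact Or.inr (Or.inl h1)
  · right; right
    obtain ⟨h2, h3⟩ : r ∣ (p ^ a) ^ 4 + (p ^ a) ^ 2 + 1 ∧ r ≠ 3 := by
      rcases ho with ho | ho
      · exact dvd_of_six hr ha ho
      · exact dvd_of_three hr ha ho
    have h4 : r ∣ 3 * N := by
      rw [h1]
      exact h2.mul_left _
    rcases hr.dvd_mul.1 h4 with h5 | h5
    · exact absurd ((Nat.prime_dvd_prime_iff_eq hr Nat.prime_three).1 h5) h3
    · exact h5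

/-- the quadratic case with the primes -/
theorem quad_dvd (hr : r.Prime) (ha : 0 < a) (hp : 2 ≤ p) (ho : orderOf (p : ZMod r) = a * 6 ∨ orderOf (p : ZMod r) = a * 3)
    {N : ℕ} {y z : ℂ} (hy : y = (p ^ a : ℕ) ∨ y = ((p ^ a : ℕ) : ℂ)⁻¹) (hz : z = (p ^ a : ℕ) ∨ z = ((p ^ a : ℕ) : ℂ)⁻¹)
    (h : (N : ℂ) * ((1 + y) * (1 + z)) = (1 + (p ^ a : ℕ) : ℂ) ^ 2 * (1 + (p ^ a : ℕ) ^ 2 + (p ^ a : ℕ) ^ 4)) : r ∣ N := by
  have hq : 2 ≤ p ^ a := le_trans hp (Nat.le_self_pow ha.ne' p)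
  have h2 : r ∣ (p ^ a) ^ 4 + (p ^ a) ^ 2 + 1 := by
    rcases ho with ho | ho
    · exact (dvd_of_six hr ha ho).1
    · exact (dvd_of_three hr ha ho).1
  exact h2.trans (quad hq hy hz h)

end primes

end Cfsg.Agent.H364.OZ.G2End
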