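import Cfsg.Agent.H730.OZ.Top
import Cfsg.Agent.H448.Van.Arith
import Cfsg.Agent.S1059
import Cfsg.Agent.S1062
import Cfsg.Agent.S1065
import Cfsg.Agent.S1067

/-!
# S4842: the middle value (helper364)

An irreducible character with exactly one class of zeros satisfies `∑ p-elements = p ^ m χ(1)` with

* `F₄(q)`: `m = 24 a` (`sum_F4`), `G₂(q)`: `m = 6 a` (`sum_G2`), `E₈(q)`: `m = 120 a` (`sum_E8`);
* `PΩ⁺(8, q)`: `m = 12 a` (`sum_O8`), `³D₄(q)`: `m = 12 a`, or `- p ^ m`, `m = 6 a, 18 a` (`sum_3D4`).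

The input is `CP p D G`: the congruence holds for a prime `r` with `orderOf (p : ZMod r) = D`.
-/

set_option autoImplicit false

namespace Cfsg.Agent.H364.OZ

open Cfsg Cfsg.Lie Finset Cfsg.Agent.H730.OZ
open Cfsg.Agent.H448.Van (not_dvd_card fact_of not_dvd_prod mid_E8 ord_one ord_neg)

universe u

/-- **The closing criterion with middle values.** -/
theorem mid_of_cong {G : Type u} [Group G] [Finite G] (hs : IsSimpleGroup G) {p : ℕ} (hp : p.Prime) {v : ℕ}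
    (hv : (Nat.card G).factorization p = v) (hv0 : v ≠ 0) (hK : Kaw p G)
    (h0 : ¬ p ^ (2 * v) - 1 ∣ Nat.card G) {Q : ℕ → ℤ → Prop}
    (hmid : ∀ (m : ℕ) (e : ℤ), (e = 1 ∨ e = -1) → 0 < m → m < 2 * v →
      (∀ r k : ℕ, Cong p r k G → (r : ℤ) ∣ e * (p : ℤ) ^ m - (p : ℤ) ^ k) → Q m e)
    {χ : G → ℂ} (hχ : IsIrrCharacter G χ) (hz : OneZero χ) :
    ∃ (m : ℕ) (e : ℤ), Q m e ∧ ∑ᶠ u ∈ pSet p G, χ u = (e : ℂ) * (p : ℂ) ^ m * χ 1 := by
  classical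
  by_contra hno
  have hex : ∀ (m : ℕ) (e : ℤ), ∑ᶠ u ∈ pSet p G, χ u = (e : ℂ) * (p : ℂ) ^ m * χ 1 → ¬ Q m e :=
    fun m e h1 h2 => hno ⟨m, e, h2, h1⟩
  have := Fintype.ofFinite G
  have hd : ((charDegree χ : ℕ) : ℂ) = χ 1 := H686.CharKit.charDegree_cast (Cfsg.Agent.Characters.Core.isIrr_isCharacter hχ)
  have hd0 : 0 < charDegree χ := H686.CharKit.charDegree_pos ⟨χ, hχ⟩
  have hpG : p ∣ Nat.card G := by
    by_contra h
    rw [Nat.factorization_eq_zero_of_not_dvd h] at hv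
    exact hv0 hv.symm
  obtain ⟨m, e, he, hsum⟩ := hK.sum χ hχ
  obtain ⟨hmle, hmtop⟩ := hK.top hp hχ he hsum
  rw [hv] at hmle hmtop
  rcases Nat.eq_zero_or_pos m with hm0 | hm0
  · refine h0 ?_
    have h1 := OneZero.dvd_of_degree hp hpG hχ hz ?_
    · rwa [hK.card, hv] at h1
    · obtain ⟨z, hzz⟩ := frob hp hχ
      rw [hsum, hm0, pow_zero, mul_one, ← hd] at hzz
      have h2 : e * (charDegree χ : ℤ) = ((p ^ (Nat.card G).factorization p : ℕ) : ℤ) * z := by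
        exact_mod_cast hzz
      have h3 : ((p ^ (Nat.card G).factorization p : ℕ) : ℤ) ∣ (charDegree χ : ℤ) := by
        rcases he with rfl | rfl
        · exact ⟨z, by rw [← h2, one_mul]⟩
        · exact ⟨-z, by rw [mul_neg, ← h2]; ring⟩
      exact_mod_cast h3
  rcases Nat.lt_or_ge m (2 * v) with hlt | hge
  · exact hex m e hsum (hmid m e he hm0 hlt fun r k hrk => hrk χ hχ hz m e he hsum)
  · have hall := hmtop (le_antisymm hmle hge)
    obtain ⟨u, hu⟩ := @exists_prime_orderOf_dvd_card' G _ _ p ⟨hp⟩ hpG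
    have hu1 : χ u = χ 1 := hall u ⟨1, by rw [hu, pow_one]⟩
    set K := H686.CharKit.chKer (⟨χ, hχ⟩ : IrrCharacter G) with hKdef
    have huK : u ∈ K := H686.CharKit.mem_chKer.2 hu1
    have hKtop : K = ⊤ := by
      rcases hs.eq_bot_or_eq_top_of_normal K inferInstance with h | h
      · exfalso
        rw [h, Subgroup.mem_bot] at huK
        rw [huK, orderOf_one] at hu
        exact hp.one_lt.ne hu
      · exact h
    obtain ⟨x, hx0, -⟩ := hz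
    have hxK : x ∈ K := by rw [hKtop]; exact Subgroup.mem_top _
    have hx1 : χ x = χ 1 := H686.CharKit.mem_chKer.1 hxK
    rw [hx0, ← hd] at hx1
    have : (charDegree χ : ℂ) ≠ 0 := by exact_mod_cast hd0.ne'
    exact this hx1.symm

/-- the congruence holds for a prime of order `D` -/
def CP (p D : ℕ) (G : Type u) [Group G] : Prop :=
  ∃ r : ℕ, r.Prime ∧ orderOf (p : ZMod r) = D ∧ Cong p r 0 G

theorem CP.spec {G : Type u} [Group G] {p D m : ℕ} {e : ℤ} (h : CP p D G) (hD : 3 ≤ D)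
    (hc : ∀ r k : ℕ, Cong p r k G → (r : ℤ) ∣ e * (p : ℤ) ^ m - (p : ℤ) ^ k) (he : e = 1 ∨ e = -1) :
    D ∣ 2 * m ∧ (e = -1 → ¬ D ∣ m) ∧ (e = 1 → D ∣ m) := by
  obtain ⟨r, hrp, hord, hcg⟩ := h
  have h1 := hc r 0 hcg
  have : Fact r.Prime := ⟨hrp⟩
  have hr : 2 < r := by
    have h2 : orderOf (p : ZMod r) ∣ r - 1 := by
      apply orderOf_dvd_of_pow_eq_one
      apply ZMod.pow_card_sub_one_eq_one
      intro h3
      rw [h3] at hord
      have h4 : orderOf (0 : ZMod r) = 0 := orderOf_eq_zero_iff'.2 fun n hn h => by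
        rw [zero_pow hn.ne'] at h
        exact zero_ne_one h
      omega
    have h3 := hrp.two_le
    have h4 := Nat.le_of_dvd (by omega) h2
    omega
  rcases he with rfl | rfl
  · have h2 := ord_one hord h1
    exact ⟨h2.mul_left 2, fun h => absurd h (by norm_num), fun _ => h2⟩
  · obtain ⟨h2, h3⟩ := ord_neg hord h1
    exact ⟨h2, fun _ => h3 hr, fun h => absurd h (by norm_num)⟩

/-- **The general form.** -/
theorem sum_gen {G : Type u} [Group G] [Finite G] (hs : IsSimpleGroup G) {p a N g : ℕ} (hp : p.Prime) (ha : 0 < a)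
    {L : List ℕ} (hg : ¬ p ∣ g) (hcard : g * Nat.card G = p ^ (N * a) * (L.map fun d => (p ^ a) ^ d - 1).prod)
    (hL : ∀ d ∈ L, 0 < d ∧ d < 2 * N) (hN : 4 ≤ N) (hK : Kaw p G) {Q : ℕ → ℤ → Prop}
    (hmid : ∀ (m : ℕ) (e : ℤ), (e = 1 ∨ e = -1) → 0 < m → m < 2 * (N * a) →
      (∀ D, 3 ≤ D → CP p D G → D ∣ 2 * m ∧ (e = -1 → ¬ D ∣ m) ∧ (e = 1 → D ∣ m)) → Q m e)
    {χ : G → ℂ} (hχ : IsIrrCharacter G χ) (hz : OneZero χ) :
    ∃ (m : ℕ) (e : ℤ), Q m e ∧ ∑ᶠ u ∈ pSet p G, χ u = (e : ℂ) * (p : ℂ) ^ m * χ 1 := by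
  have hv : (Nat.card G).factorization p = N * a :=
    fact_of hp hg (not_dvd_prod hp ha (fun d hd => (hL d hd).1)) Nat.card_pos.ne' hcard
  refine mid_of_cong hs hp hv (by positivity) hK ?_ ?_ hχ hz
  · rw [show 2 * (N * a) = a * (2 * N) by ring]
    refine not_dvd_card hp ha (by omega) (N := N * a) (L := L) ?_ hL
    rw [← hcard]
    exact dvd_mul_left _ _
  · intro m e he hm hm2 hc
    exact hmid m e he hm hm2 fun D hD hCP => hCP.spec hD hc he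

/-! ### the numbers -/

theorem dvd_lt {a b m : ℕ} {k : ℕ} (h : a * b ∣ m) (hm : 0 < m) (hm2 : m < a * b * k) : ∃ c, 0 < c ∧ c < k ∧ m = a * b * c := by
  obtain ⟨c, hc⟩ := h
  refine ⟨c, Nat.pos_of_ne_zero (by rintro rfl; omega), ?_, hc⟩
  rw [hc] at hm2
  exact Nat.lt_of_mul_lt_mul_left hm2

theorem lcm_dvd {a b c l M : ℕ} (ha : 0 < a) (hl : ∀ x, b ∣ x → c ∣ x → l ∣ x) (h1 : a * b ∣ M) (h2 : a * c ∣ M) :
    a * l ∣ M := by
  obtain ⟨x, rfl⟩ := (Dvd.intro b rfl : a ∣ a * b).trans h1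
  exact Nat.mul_dvd_mul_left _ (hl x (Nat.dvd_of_mul_dvd_mul_left ha h1) (Nat.dvd_of_mul_dvd_mul_left ha h2))

theorem mid_F4 {a m : ℕ} {e : ℤ} (ha : 0 < a) (hm : 0 < m) (hm2 : m < 2 * (24 * a)) (he : e = 1 ∨ e = -1)
    (h8 : a * 8 ∣ 2 * m ∧ (e = -1 → ¬ a * 8 ∣ m) ∧ (e = 1 → a * 8 ∣ m))
    (h12 : a * 12 ∣ 2 * m ∧ (e = -1 → ¬ a * 12 ∣ m) ∧ (e = 1 → a * 12 ∣ m)) : m = a * 24 ∧ e = 1 := by
  rcases he with rfl | rfl
  · have h1 := lcm_dvd (l := 24) ha (fun x h1 h2 => by omega) (h8.2.2 rfl) (h12.2.2 rfl)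
    obtain ⟨c, hc, hc2, h2⟩ := dvd_lt (k := 2) h1 hm (by omega)
    have : c = 1 := by omega
    subst this
    exact ⟨by omega, rfl⟩
  · exfalso
    have h1 := lcm_dvd (l := 24) ha (fun x h1 h2 => by omega) h8.1 h12.1
    apply h12.2.1 rfl
    rw [show a * 24 = 2 * (a * 12) by ring] at h1
    exact Nat.dvd_of_mul_dvd_mul_left (by norm_num) h1

theorem mid_G2 {a m D : ℕ} {e : ℤ} (hm : 0 < m) (hm2 : m < 2 * (6 * a)) (he : e = 1 ∨ e = -1)
    (hD : D ∣ a * 3) (h3 : e = -1 → ¬ D ∣ m)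
    (h6 : a * 6 ∣ 2 * m ∧ (e = 1 → a * 6 ∣ m)) : m = a * 6 ∧ e = 1 := by
  rcases he with rfl | rfl
  · obtain ⟨c, hc, hc2, h2⟩ := dvd_lt (k := 2) (h6.2 rfl) hm (by omega)
    have : c = 1 := by omega
    subst this
    exact ⟨by omega, rfl⟩
  · exfalso
    apply h3 rfl
    refine hD.trans ?_
    have h1 := h6.1
    rw [show a * 6 = 2 * (a * 3) by ring] at h1
    exact Nat.dvd_of_mul_dvd_mul_left (by norm_num) h1

theorem mid_O8 {a m : ℕ} {e : ℤ} (ha : 0 < a) (hm : 0 < m) (hm2 : m < 2 * (12 * a)) (he : e = 1 ∨ e = -1)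
    (h4 : a * 4 ∣ 2 * m ∧ (e = -1 → ¬ a * 4 ∣ m) ∧ (e = 1 → a * 4 ∣ m))
    (h6 : a * 6 ∣ 2 * m ∧ (e = -1 → ¬ a * 6 ∣ m) ∧ (e = 1 → a * 6 ∣ m)) : m = a * 12 ∧ e = 1 := by
  rcases he with rfl | rfl
  · have h1 := lcm_dvd (l := 12) ha (fun x h1 h2 => by omega) (h4.2.2 rfl) (h6.2.2 rfl)
    obtain ⟨c, hc, hc2, h2⟩ := dvd_lt (k := 2) h1 hm (by omega)
    have : c = 1 := by omega
    subst this
    exact ⟨by omega, rfl⟩
  · exfalso
    have h1 := lcm_dvd (l := 12) ha (fun x h1 h2 => by omega) h4.1 h6.1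
    apply h6.2.1 rfl
    rw [show a * 12 = 2 * (a * 6) by ring] at h1
    exact Nat.dvd_of_mul_dvd_mul_left (by norm_num) h1

theorem mid_3D4 {a m : ℕ} {e : ℤ} (hm : 0 < m) (hm2 : m < 2 * (12 * a)) (he : e = 1 ∨ e = -1)
    (h12 : a * 12 ∣ 2 * m ∧ (e = -1 → ¬ a * 12 ∣ m) ∧ (e = 1 → a * 12 ∣ m)) :
    (m = a * 12 ∧ e = 1) ∨ ((m = a * 6 ∨ m = a * 18) ∧ e = -1) := by
  rcases he with rfl | rfl
  · left
    obtain ⟨c, hc, hc2, h2⟩ := dvd_lt (k := 2) (h12.2.2 rfl) hm (by omega)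
    have : c = 1 := by omega
    subst this
    exact ⟨by omega, rfl⟩
  · right
    obtain ⟨c, hc, hc2, h2⟩ := dvd_lt (k := 4) h12.1 (by omega) (by omega)
    have h3 := h12.2.1 rfl
    have h4 : c = 1 ∨ c = 2 ∨ c = 3 := by omega
    rcases h4 with rfl | rfl | rfl
    · exact ⟨Or.inl (by omega), rfl⟩
    · exact absurd (show a * 12 ∣ m from ⟨1, by omega⟩) h3
    · exact ⟨Or.inr (by omega), rfl⟩

/-! ### the families -/

section

variable {F : Type u} [Field F] [Fintype F] {p a : ℕ}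

/-- **`F₄(q)`**: `24 a`. -/
theorem sum_F4 (hs : IsSimpleGroup ↥(chevF4.group F)) (hp : p.Prime) (ha : 0 < a) (hF : Fintype.card F = p ^ a)
    (hK : Kaw p ↥(chevF4.group F)) (h8 : CP p (a * 8) ↥(chevF4.group F)) (h12 : CP p (a * 12) ↥(chevF4.group F))
    {χ : ↥(chevF4.group F) → ℂ} (hχ : IsIrrCharacter ↥(chevF4.group F) χ) (hz : OneZero χ) :
    ∑ᶠ u ∈ pSet p ↥(chevF4.group F), χ u = (p : ℂ) ^ (a * 24) * χ 1 := by
  have hcard : 1 * Nat.card ↥(chevF4.group F) = p ^ (24 * a) * (([2, 6, 8, 12] : List ℕ).map fun d => (p ^ a) ^ d - 1).prod := by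
    rw [Cfsg.Agent.S1062.result hF]
    simp only [List.map_cons, List.map_nil, List.prod_cons, List.prod_nil, mul_one, ← pow_mul]
    rw [mul_comm a 24]
    ring
  obtain ⟨m, e, ⟨rfl, rfl⟩, h⟩ := sum_gen (Q := fun m e => m = a * 24 ∧ e = 1) hs hp ha (g := 1)
    (fun h => hp.one_lt.ne' (Nat.dvd_one.1 h)) hcard (fun d hd => by simp at hd; omega) (by norm_num) hK
    (fun m e he hm hm2 hc => mid_F4 ha hm hm2 he (hc _ (by omega) h8) (hc _ (by omega) h12)) hχ hz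
  rw [h]
  push_cast
  ring

/-- **`G₂(q)`**: `6 a`. -/
theorem sum_G2 {D : ℕ} (hs : IsSimpleGroup ↥(chevG2.group F)) (hp : p.Prime) (ha : 0 < a) (hF : Fintype.card F = p ^ a)
    (hK : Kaw p ↥(chevG2.group F)) (hD : D ∣ a * 3) (hD3 : 3 ≤ D) (h3 : CP p D ↥(chevG2.group F))
    (h6 : CP p (a * 6) ↥(chevG2.group F))
    {χ : ↥(chevG2.group F) → ℂ} (hχ : IsIrrCharacter ↥(chevG2.group F) χ) (hz : OneZero χ) :
    ∑ᶠ u ∈ pSet p ↥(chevG2.group F), χ u = (p : ℂ) ^ (a * 6) * χ 1 := by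
  have hcard : 1 * Nat.card ↥(chevG2.group F) = p ^ (6 * a) * (([2, 6] : List ℕ).map fun d => (p ^ a) ^ d - 1).prod := by
    rw [Cfsg.Agent.S1059.result hF]
    simp only [List.map_cons, List.map_nil, List.prod_cons, List.prod_nil, mul_one, ← pow_mul]
    rw [mul_comm a 6]
    ring
  obtain ⟨m, e, ⟨rfl, rfl⟩, h⟩ := sum_gen (Q := fun m e => m = a * 6 ∧ e = 1) hs hp ha (g := 1)
    (fun h => hp.one_lt.ne' (Nat.dvd_one.1 h)) hcard (fun d hd => by simp at hd; omega) (by norm_num) hK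
    (fun m e he hm hm2 hc => mid_G2 hm hm2 he hD (hc _ hD3 h3).2.1
      ⟨(hc _ (by omega) h6).1, (hc _ (by omega) h6).2.2⟩) hχ hz
  rw [h]
  push_cast
  ring

/-- **`E₈(q)`**: `120 a`. -/
theorem sum_E8 (hs : IsSimpleGroup ↥(chevE8.group F)) (hp : p.Prime) (ha : 0 < a) (hF : Fintype.card F = p ^ a)
    (hK : Kaw p ↥(chevE8.group F)) (h15 : CP p (a * 15) ↥(chevE8.group F)) (h20 : CP p (a * 20) ↥(chevE8.group F))
    (h24 : CP p (a * 24) ↥(chevE8.group F))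
    {χ : ↥(chevE8.group F) → ℂ} (hχ : IsIrrCharacter ↥(chevE8.group F) χ) (hz : OneZero χ) :
    ∑ᶠ u ∈ pSet p ↥(chevE8.group F), χ u = (p : ℂ) ^ (a * 120) * χ 1 := by
  have hcard : 1 * Nat.card ↥(chevE8.group F) =
      p ^ (120 * a) * (([2, 8, 12, 14, 18, 20, 24, 30] : List ℕ).map fun d => (p ^ a) ^ d - 1).prod := by
    rw [Cfsg.Agent.S1065.result hF]
    simp only [List.map_cons, List.map_nil, List.prod_cons, List.prod_nil, mul_one, ← pow_mul]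
    rw [mul_comm a 120]
    ring
  obtain ⟨m, e, ⟨rfl, rfl⟩, h⟩ := sum_gen (Q := fun m e => e = 1 ∧ m = a * 120) hs hp ha (g := 1)
    (fun h => hp.one_lt.ne' (Nat.dvd_one.1 h)) hcard (fun d hd => by simp at hd; omega) (by norm_num) hK
    (fun m e he hm hm2 hc => mid_E8 ha hm (by omega) (hc _ (by omega) h15).1 (hc _ (by omega) h20).1
      (hc _ (by omega) h24).1 (hc _ (by omega) h15).2.1
      (fun h1 => ⟨(hc _ (by omega) h15).2.2 h1, (hc _ (by omega) h20).2.2 h1, (hc _ (by omega) h24).2.2 h1⟩) he) hχ hz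
  rw [h]
  push_cast
  ring

/-- **`PΩ⁺(8, q)`**, any group with this order: `12 a`. -/
theorem sum_O8 {G : Type u} [Group G] [Finite G] (hs : IsSimpleGroup G) {g : ℕ} (hp : p.Prime) (ha : 0 < a)
    (hg : ¬ p ∣ g) (hcard : g * Nat.card G = (p ^ a) ^ 12 * ((p ^ a) ^ 2 - 1) * ((p ^ a) ^ 4 - 1) * ((p ^ a) ^ 4 - 1) *
      ((p ^ a) ^ 6 - 1)) (hK : Kaw p G) (h4 : CP p (a * 4) G) (h6 : CP p (a * 6) G)
    {χ : G → ℂ} (hχ : IsIrrCharacter G χ) (hz : OneZero χ) :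
    ∑ᶠ u ∈ pSet p G, χ u = (p : ℂ) ^ (a * 12) * χ 1 := by
  have hcard' : g * Nat.card G = p ^ (12 * a) * (([2, 4, 4, 6] : List ℕ).map fun d => (p ^ a) ^ d - 1).prod := by
    rw [hcard]
    simp only [List.map_cons, List.map_nil, List.prod_cons, List.prod_nil, mul_one, ← pow_mul]
    rw [mul_comm a 12]
    ring
  obtain ⟨m, e, ⟨rfl, rfl⟩, h⟩ := sum_gen (Q := fun m e => m = a * 12 ∧ e = 1) hs hp ha hg
    hcard' (fun d hd => by simp at hd; omega) (by norm_num) hK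
    (fun m e he hm hm2 hc => mid_O8 ha hm hm2 he (hc _ (by omega) h4) (hc _ (by omega) h6)) hχ hz
  rw [h]
  push_cast
  ring

end

/-- **`³D₄(q)`**: `12 a`, or the sign `-` and `6 a`, `18 a`. -/
theorem sum_3D4 {K : Type u} [Field K] [Fintype K] {p a q : ℕ} (hs : IsSimpleGroup ↥(twistedD4 K q)) (hp : p.Prime)
    (ha : 0 < a) (hq : q = p ^ a) (hF : Fintype.card K = q ^ 3) (hK : Kaw p ↥(twistedD4 K q))
    (h12 : CP p (a * 12) ↥(twistedD4 K q))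
    {χ : ↥(twistedD4 K q) → ℂ} (hχ : IsIrrCharacter ↥(twistedD4 K q) χ) (hz : OneZero χ) :
    ∑ᶠ u ∈ pSet p ↥(twistedD4 K q), χ u = (p : ℂ) ^ (a * 12) * χ 1 ∨
    ∑ᶠ u ∈ pSet p ↥(twistedD4 K q), χ u = - (p : ℂ) ^ (a * 6) * χ 1 ∨
    ∑ᶠ u ∈ pSet p ↥(twistedD4 K q), χ u = - (p : ℂ) ^ (a * 18) * χ 1 := by
  have hqp : IsPrimePow q := by rw [hq]; exact hp.isPrimePow.pow ha.ne'
  have hp4 : ¬ p ∣ q ^ 4 - 1 := by
    intro h
    have h1 : p ∣ q ^ 4 := by rw [hq]; exact dvd_pow (dvd_pow_self p ha.ne') (by norm_num)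
    have h2 : 1 ≤ q ^ 4 := Nat.one_le_pow _ _ hqp.pos
    have h3 := (Nat.dvd_sub_iff_right h2 h1).1 h
    exact hp.one_lt.ne' (Nat.dvd_one.1 h3)
  have hcard : (q ^ 4 - 1) * Nat.card ↥(twistedD4 K q) =
      p ^ (12 * a) * (([2, 6, 12] : List ℕ).map fun d => (p ^ a) ^ d - 1).prod := by
    have h1 : (q ^ 4 - 1) * (q ^ 8 + q ^ 4 + 1) = q ^ 12 - 1 := by
      obtain ⟨c, hc⟩ := Nat.exists_eq_add_of_le' (Nat.one_le_pow 4 q hqp.pos)
      rw [show q ^ 8 = (q ^ 4) ^ 2 by ring, show q ^ 12 = (q ^ 4) ^ 3 by ring, hc, Nat.add_sub_cancel]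
      have : (c + 1) ^ 3 = c * ((c + 1) ^ 2 + (c + 1) + 1) + 1 := by ring
      rw [this, Nat.add_sub_cancel]
    calc (q ^ 4 - 1) * Nat.card ↥(twistedD4 K q)
        = q ^ 12 * (q ^ 2 - 1) * (q ^ 6 - 1) * ((q ^ 4 - 1) * (q ^ 8 + q ^ 4 + 1)) := by
          rw [Cfsg.Agent.S1067.result hqp hF]; ring
      _ = _ := by
          rw [h1, hq]
          simp only [List.map_cons, List.map_nil, List.prod_cons, List.prod_nil, mul_one, ← pow_mul]
          rw [mul_comm a 12]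
          ring
  obtain ⟨m, e, hme, h⟩ := sum_gen (Q := fun m e => (m = a * 12 ∧ e = 1) ∨ ((m = a * 6 ∨ m = a * 18) ∧ e = -1)) hs hp ha hp4
    hcard (fun d hd => by simp at hd; omega) (by norm_num) hK
    (fun m e he hm hm2 hc => mid_3D4 hm hm2 he (hc _ (by omega) h12)) hχ hz
  rcases hme with ⟨rfl, rfl⟩ | ⟨rfl | rfl, rfl⟩
  · left; rw [h]; push_cast; ring
  · right; left; rw [h]; push_cast; ring
  · right; right; rw [h]; push_cast; ring

end Cfsg.Agent.H364.OZ
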